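import Cfsg.Agent.Perm.Cent
import Cfsg.Agent.Perm.Basic
import Cfsg.Agent.Char.Central
import Cfsg.Agent.S0669
import Cfsg.Prelude.Def_Perm

/-! Invariant matrices of a permutation group (`MInv`), their twisted permutation characters
(`mtw`), orbital matrices (`orb`) and projections onto multiplicity-one constituents. -/

set_option autoImplicit false

namespace Cfsg.Agent.Perm

open MulAction Char Matrix

variable {G Ω : Type*} [Group G] [MulAction G Ω]

/-- The permutation character. -/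
noncomputable abbrev pch (G Ω : Type*) [Group G] [MulAction G Ω] : G → ℂ :=
  fun g => (Nat.card (fixedBy Ω g) : ℂ)

/-- A matrix constant on the orbits on pairs. -/
def MInv (G : Type*) [Group G] [MulAction G Ω] (M : Matrix Ω Ω ℂ) : Prop :=
  ∀ (g : G) x y, M (g • x) (g • y) = M x y

open Classical in
/-- The orbital matrix of the pair `(a, b)`. -/
noncomputable def orb (G : Type*) [Group G] [MulAction G Ω] (a b : Ω) : Matrix Ω Ω ℂ :=
  of fun x y => if (x, y) ∈ orbit G (a, b) then 1 else 0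

open Classical in
theorem orb_apply (a b x y : Ω) : orb G a b x y = if (x, y) ∈ orbit G (a, b) then 1 else 0 := rfl

theorem mInv_orb (a b : Ω) : MInv G (orb G a b) := fun g x y => by
  have : g • (x, y) ∈ orbit G (a, b) ↔ (x, y) ∈ orbit G (a, b) := by
    rw [← orbit_eq_iff, orbit_smul, orbit_eq_iff]
  classical
  exact if_congr this rfl rfl

theorem mem_orbit_pair {a b y : Ω} : (a, y) ∈ orbit G (a, b) ↔ y ∈ orbit (stabilizer G a) b :=
  ⟨fun ⟨g, h⟩ => ⟨⟨g, congrArg Prod.fst h⟩, congrArg Prod.snd h⟩, fun ⟨g, h⟩ => ⟨g, Prod.ext g.2 h⟩⟩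

theorem orb_diag {a b : Ω} (h : b ≠ a) (x : Ω) : orb G a b x x = 0 :=
  if_neg fun ⟨g, e⟩ => h (smul_left_cancel g ((congrArg Prod.snd e).trans (congrArg Prod.fst e).symm))

theorem MInv.eq_of_mem {M : Matrix Ω Ω ℂ} (h : MInv G M) {a b x y : Ω} (e : (x, y) ∈ orbit G (a, b)) :
    M x y = M a b := by
  obtain ⟨g, e⟩ := e
  rw [← h g a b, show g • a = x from congrArg Prod.fst e, show g • b = y from congrArg Prod.snd e]

theorem MInv.transpose {M : Matrix Ω Ω ℂ} (h : MInv G M) : MInv G Mᵀ := fun g x y => h g y x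

theorem MInv.sub {M N : Matrix Ω Ω ℂ} (h : MInv G M) (h' : MInv G N) : MInv G (M - N) :=
  fun g x y => by simp only [Matrix.sub_apply, h g, h' g]

theorem MInv.smul {M : Matrix Ω Ω ℂ} (h : MInv G M) (c : ℂ) : MInv G (c • M) :=
  fun g x y => by simp only [Matrix.smul_apply, h g]

variable [Fintype Ω]

/-- The permutation character twisted by a matrix. -/
noncomputable def mtw (G : Type*) [Group G] [MulAction G Ω] (M : Matrix Ω Ω ℂ) : G → ℂ :=
  fun g => ∑ x, M x (g • x)

theorem MInv.mul {M N : Matrix Ω Ω ℂ} (h : MInv G M) (h' : MInv G N) : MInv G (M * N) :=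
  fun g x y => by
    rw [mul_apply, mul_apply, ← Equiv.sum_comp (toPerm g)]
    simp only [toPerm_apply, h g, h' g]

theorem sum_orb [IsPretransitive G Ω] (a b x : Ω) :
    ∑ y, orb G a b x y = Nat.card (orbit (stabilizer G a) b) := by
  classical
  obtain ⟨g, rfl⟩ := exists_smul_eq G a x
  rw [← Equiv.sum_comp (toPerm g)]
  simp only [toPerm_apply, mInv_orb a b g, orb_apply, mem_orbit_pair, Finset.sum_boole,
    Nat.card_eq_fintype_card, Fintype.card_subtype]

theorem card_mul_inner_one [Fintype G] [IsPretransitive G Ω] (M : Matrix Ω Ω ℂ) :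
    Fintype.card Ω * classInner (mtw G M) (fun _ => 1) = ∑ x, ∑ y, M x y := by
  have key : ∀ (f : Ω → ℂ) (x : Ω), Fintype.card Ω * ∑ g : G, f (g • x) = Nat.card G * ∑ y, f y := by
    intro f x
    have h1 : ∀ y, ∑ g : G, f (g • x) = ∑ g : G, f (g • y) := fun y => by
      obtain ⟨u, rfl⟩ := exists_smul_eq G x y
      rw [← Equiv.sum_comp (Equiv.mulRight u)]
      simp only [Equiv.coe_mulRight, mul_smul]
    have h2 : ∀ g : G, ∑ y, f (g • y) = ∑ y, f y := fun g => Equiv.sum_comp (toPerm g) f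
    rw [← nsmul_eq_mul, ← Finset.card_univ, ← Finset.sum_const, Finset.sum_congr rfl fun y _ => h1 y,
      Finset.sum_comm]
    simp [h2]
  rw [classInner_one_right, mul_left_comm]
  simp only [mtw]
  rw [Finset.sum_comm, Finset.mul_sum, Finset.sum_congr rfl fun x _ => key (M x) x, ← Finset.mul_sum,
    inv_mul_cancel_left₀ natCard_cast_ne_zero]

theorem inner_one_of_sum [Fintype G] [IsPretransitive G Ω] [Nonempty Ω] {M : Matrix Ω Ω ℂ} {c : ℂ}
    (h : ∀ x, ∑ y, M x y = c) : classInner (mtw G M) (fun _ => 1) = c := by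
  refine mul_left_cancel₀ (Nat.cast_ne_zero.2 (Fintype.card_ne_zero (α := Ω))) ?_
  simp [card_mul_inner_one, h]

theorem inner_pch_self [Fintype G] [IsPretransitive G Ω] (a : Ω) :
    classInner (pch G Ω) (pch G Ω) = Nat.card (orbitRel.Quotient (stabilizer G a) Ω) := by
  rw [← S0669.result a, ← classInner_card_fixedBy_one, classInner_eq_classInner_one]
  congr 1
  funext g
  rw [map_natCast, ← Nat.cast_mul, ← Nat.card_prod]
  congr 1
  exact Nat.card_congr ⟨fun x => ⟨(x.1, x.2), Prod.ext x.1.2 x.2.2⟩,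
    fun x => (⟨x.1.1, congrArg Prod.fst x.2⟩, ⟨x.1.2, congrArg Prod.snd x.2⟩), fun _ => rfl, fun _ => rfl⟩

theorem inner_pch_one [Fintype G] [IsPretransitive G Ω] [Nonempty Ω] :
    classInner (pch G Ω) (fun _ => 1) = 1 := by
  rw [classInner_card_fixedBy_one, Nat.cast_eq_one]
  exact Nat.card_eq_one_iff_unique.2 ⟨(pretransitive_iff_subsingleton_quotient G Ω).1 ‹_›,
    ⟨Quotient.mk'' (Classical.arbitrary Ω)⟩⟩

variable [DecidableEq Ω] {M : Matrix Ω Ω ℂ}

theorem mtw_one : mtw G (1 : Matrix Ω Ω ℂ) = pch G Ω := by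
  funext g
  simp only [mtw, one_apply, Finset.sum_boole, pch, Nat.card_eq_fintype_card, Fintype.card_subtype,
    mem_fixedBy, eq_comm]

theorem tw_toLin (M : Matrix Ω Ω ℂ) : tw (permRep ℂ G Ω) (toLin' M) = mtw G M := by
  funext g
  rw [tw, LinearMap.trace_eq_matrix_trace ℂ (Pi.basisFun ℂ Ω), mtw, Matrix.trace,
    ← Equiv.sum_comp (toPerm g)]
  refine Finset.sum_congr rfl fun x _ => ?_
  simp [LinearMap.toMatrix_apply, permRep]

theorem character_permRep : (permRep ℂ G Ω).character = pch G Ω := by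
  rw [← tw_one, ← mtw_one, ← tw_toLin, toLin'_one]
  rfl

theorem mInv_iff : MInv G M ↔ ∀ g : G, Commute (toLin' M) (permRep ℂ G Ω g) := by
  constructor
  · intro h g
    refine LinearMap.ext fun f => funext fun x => ?_
    change ∑ y, M x y * f (g⁻¹ • y) = ∑ y, M (g⁻¹ • x) y * f y
    rw [← Equiv.sum_comp (toPerm g)]
    simp only [toPerm_apply, inv_smul_smul, ← h g (g⁻¹ • x), smul_inv_smul]
  · intro h g x y
    have := congrFun (LinearMap.congr_fun (h g) (Pi.single y 1)) (g • x)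
    change ∑ z, M (g • x) z * (Pi.single y 1 : Ω → ℂ) (g⁻¹ • z) =
      ∑ z, M (g⁻¹ • g • x) z * (Pi.single y 1 : Ω → ℂ) z at this
    simpa [Pi.single_apply, inv_smul_eq_iff] using this

theorem mInv_one : MInv G (1 : Matrix Ω Ω ℂ) := fun g x y => by simp [one_apply]

theorem MInv.isClassFunction (h : MInv G M) : IsClassFunction G (mtw G M) :=
  tw_toLin (G := G) M ▸ isClassFunction_tw (mInv_iff.1 h)

variable [Fintype G] {χ : G → ℂ}

theorem MInv.isIntegral (h : MInv G M) (hi : ∀ x y, ∃ n : ℤ, M x y = n) (hχ : IsCharacter G χ) :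
    IsIntegral ℤ (classInner (mtw G M) χ) := by
  choose N hN using hi
  rw [← tw_toLin]
  refine isIntegral_tw (mInv_iff.1 h) ?_ hχ
  rw [show M = (Int.castRingHom ℂ).mapMatrix (of N) from Matrix.ext hN]
  exact map_isIntegral_int toLinAlgEquiv' (map_isIntegral_int _ (Matrix.isIntegral _))

theorem isIntegral_orb (a b : Ω) (hχ : IsCharacter G χ) :
    IsIntegral ℤ (classInner (mtw G (orb G a b)) χ) :=
  (mInv_orb a b).isIntegral (fun x y => by
    rw [orb_apply]; split_ifs; exacts [⟨1, by simp⟩, ⟨0, by simp⟩]) hχ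

theorem MInv.inner_eq_zero (h : MInv G M) (hχ : IsCharacter G χ) (h0 : classInner (pch G Ω) χ = 0) :
    classInner (mtw G M) χ = 0 :=
  tw_toLin (G := G) M ▸ tw_eq_zero (mInv_iff.1 h) hχ (character_permRep (G := G) (Ω := Ω) ▸ h0)

theorem MInv.inner_sq (h : MInv G M) (hχ : IsCharacter G χ) (h1 : classInner (pch G Ω) χ = 1) :
    classInner (mtw G (M * M)) χ = classInner (mtw G M) χ ^ 2 := by
  rw [← tw_toLin, ← tw_toLin, ← tw_pow (mInv_iff.1 h) hχ (character_permRep (G := G) (Ω := Ω) ▸ h1),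
    toLin'_mul, sq]
  rfl

theorem exists_mproj (hχ : IsIrrCharacter G χ) (h1 : classInner (pch G Ω) χ = 1) :
    ∃ E : Matrix Ω Ω ℂ, MInv G E ∧ E * E = E ∧ mtw G E = χ ∧
      ∀ M, MInv G M → ∃ c : ℂ, M * E = c • E ∧ E * M = c • E := by
  obtain ⟨E, h2, h3, h4, h5⟩ := exists_proj hχ (character_permRep (G := G) (Ω := Ω) ▸ h1)
  obtain ⟨E, rfl⟩ := toLin'.surjective E
  refine ⟨E, mInv_iff.2 h2, toLin'.injective (by rw [toLin'_mul]; exact h3), tw_toLin (G := G) E ▸ h4,
    fun M hM => ?_⟩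
  obtain ⟨c, h6, h7⟩ := h5 _ (mInv_iff.1 hM)
  exact ⟨c, toLin'.injective (by rw [toLin'_mul, map_smul]; exact h6),
    toLin'.injective (by rw [toLin'_mul, map_smul]; exact h7)⟩

theorem dvd_subdegree [IsPretransitive G Ω] {f : ℕ} (hf : ∀ χ, IsIrrCharacter G χ → χ ≠ (fun _ => 1) →
    classInner (pch G Ω) χ ≠ 0 → ∃ m : ℕ, χ 1 = (f : ℂ) * m) {a b : Ω} (hab : b ≠ a) :
    f ∣ Nat.card (orbit (stabilizer G a) b) := by
  classical
  have : Nonempty Ω := ⟨a⟩
  have h1 := (mInv_orb (G := G) a b).isClassFunction.apply_eq_sum_irr 1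
  have h2 : ∀ χ : IrrCharacter G, ∃ ω : ℂ, IsIntegral ℤ ω ∧ (χ ≠ irrOne G →
      classInner (mtw G (orb G a b)) χ * χ.1 1 = f * ω) := fun χ => by
    by_cases h : χ = irrOne G
    · exact ⟨0, isIntegral_zero, fun e => absurd h e⟩
    by_cases h0 : classInner (pch G Ω) χ = 0
    · exact ⟨0, isIntegral_zero, fun _ => by simp [(mInv_orb a b).inner_eq_zero χ.2.isCharacter h0]⟩
    obtain ⟨m, hm⟩ := hf χ χ.2 (fun e => h (Subtype.ext e)) h0
    exact ⟨_, (isIntegral_orb a b χ.2.isCharacter).mul (isIntegral_natCast m), fun _ => by rw [hm]; ring⟩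
  choose ω h3 h4 using h2
  rw [← Finset.add_sum_erase _ _ (Finset.mem_univ (irrOne G)), coe_irrOne, inner_one_of_sum (sum_orb a b),
    Finset.sum_congr rfl fun χ h => h4 χ (Finset.ne_of_mem_erase h), ← Finset.mul_sum] at h1
  simp only [mtw, one_smul, orb_diag hab, Finset.sum_const_zero, mul_one] at h1
  rcases Nat.eq_zero_or_pos f with rfl | h
  · rw [zero_dvd_iff, ← Nat.cast_eq_zero (R := ℂ)]
    simpa using h1.symm
  · refine dvd_of_isIntegral_div h.ne' ?_
    rw [eq_neg_of_add_eq_zero_left h1.symm, neg_div, mul_div_cancel_left₀ _ (Nat.cast_ne_zero.2 h.ne')]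
    exact (IsIntegral.sum _ fun χ _ => h3 χ).neg

end Cfsg.Agent.Perm
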