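import Cfsg.Agent.Char.Misc
import Cfsg.Agent.Char.RepEquiv
import Mathlib.LinearAlgebra.Eigenspace.Triangularizable
import Mathlib.LinearAlgebra.Eigenspace.Minpoly
import Mathlib.Algebra.DirectSum.LinearMap

/-! The centraliser algebra of a complex representation: twisted characters `tw ρ T`, their
spectral decomposition (`exists_spec`), projections onto constituents (`exists_proj`), and the
multiplicity-free criterion (`mf_iff_comm`). -/

set_option autoImplicit false

namespace Cfsg.Agent.Perm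

open Module Representation Char

variable {G V : Type*} [Group G] [AddCommGroup V] [Module ℂ V] (ρ : Representation ℂ G V)

/-- The character of `ρ` twisted by an endomorphism. -/
noncomputable def tw (T : Module.End ℂ V) : G → ℂ := fun g => LinearMap.trace ℂ V (ρ g * T)

theorem tw_one : tw ρ 1 = ρ.character := by
  funext g; simp [tw, Representation.character]

variable [FiniteDimensional ℂ V] {ρ} {T : Module.End ℂ V}

theorem isClassFunction_tw (hT : ∀ g, Commute T (ρ g)) : IsClassFunction G (tw ρ T) := by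
  rw [isClassFunction_iff_isConj]
  intro a b h
  obtain ⟨c, rfl⟩ := isConj_iff.1 h
  simp only [tw, map_mul]
  rw [mul_assoc, mul_assoc, LinearMap.trace_mul_comm ℂ (ρ c), mul_assoc, mul_assoc, (hT c).eq,
    ← mul_assoc (ρ c⁻¹), ← map_mul, inv_mul_cancel, map_one, one_mul]

theorem exists_spec (hT : ∀ g, Commute T (ρ g)) : ∃ (s : Finset ℂ) (θ : ℂ → G → ℂ),
    (∀ μ, IsCharacter G (θ μ)) ∧ (∀ μ ∈ s, T.HasEigenvalue μ) ∧
      ∀ k : ℕ, tw ρ (T ^ k) = ∑ μ ∈ s, μ ^ k • θ μ := by
  classical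
  have hds := DirectSum.isInternal_submodule_of_iSupIndep_of_iSup_eq_top
    T.independent_maxGenEigenspace T.iSup_maxGenEigenspace_eq_top
  have hfin : {μ | T.maxGenEigenspace μ ≠ ⊥}.Finite :=
    WellFoundedGT.finite_ne_bot_of_iSupIndep T.independent_maxGenEigenspace
  let U : ℂ → Subrepresentation ρ := fun μ =>
    ⟨T.maxGenEigenspace μ, fun g v hv => T.mapsTo_maxGenEigenspace_of_comm (hT g) μ hv⟩
  refine ⟨hfin.toFinset, fun μ => (U μ).toRepresentation.character, fun μ => isCharacter_character _,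
    fun μ hμ => ?_, fun k => funext fun g => ?_⟩
  · exact Module.End.hasEigenvalue_of_hasGenEigenvalue (k := finrank ℂ V) (by
      rw [Module.End.HasGenEigenvalue, Module.End.HasUnifEigenvalue,
        ← Module.End.maxGenEigenspace_eq_genEigenspace_finrank]
      simpa using hμ)
  · have h1 := fun μ => T.mapsTo_maxGenEigenspace_of_comm (Commute.refl T) μ
    have h2 := fun μ => T.mapsTo_maxGenEigenspace_of_comm (hT g) μ
    have h3 := fun μ => T.mapsTo_maxGenEigenspace_of_comm ((Commute.refl T).pow_right k) μ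
    rw [tw, Module.End.mul_eq_comp, LinearMap.trace_eq_sum_trace_restrict' hds hfin
      (f := ρ g ∘ₗ T ^ k) fun μ => (h2 μ).comp (h3 μ), Finset.sum_apply]
    refine Finset.sum_congr rfl fun μ _ => ?_
    rw [LinearMap.restrict_comp (h3 μ) (h2 μ), LinearMap.trace_comp_eq_mul_of_commute_of_isNilpotent
      (μ ^ k) (LinearMap.restrict_commute ((hT g).symm.pow_right k) _ _)]
    · rfl
    · rw [← Module.End.pow_restrict k (h1 μ), map_pow]
      have h := Algebra.commute_algebraMap_right μ (T.restrict (h1 μ))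
      rw [← h.mul_geom_sum₂]
      exact Commute.isNilpotent_mul_right ((h.mul_geom_sum₂ k).trans (h.geom_sum₂_mul k).symm)
        (T.isNilpotent_restrict_maxGenEigenspace_sub_algebraMap μ)

theorem isIntegral_of_hasEigenvalue (hi : IsIntegral ℤ T) {μ : ℂ} (h : T.HasEigenvalue μ) :
    IsIntegral ℤ μ := by
  obtain ⟨P, P1, P2⟩ := hi
  obtain ⟨v, hv⟩ := h.exists_hasEigenvector
  have h1 := Module.End.aeval_apply_of_hasEigenvector (p := P.map (algebraMap ℤ ℂ)) hv
  rw [Polynomial.aeval_map_algebraMap, Polynomial.aeval_def, P2, Polynomial.eval_map] at h1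
  exact ⟨P, P1, (smul_eq_zero_iff_left hv.2).1 h1.symm⟩

variable [Fintype G] {χ : G → ℂ}

theorem exists_spec_nat (hT : ∀ g, Commute T (ρ g)) (hχ : IsCharacter G χ) :
    ∃ (s : Finset ℂ) (m : ℂ → ℕ), (∀ μ ∈ s, T.HasEigenvalue μ) ∧
      ∀ k : ℕ, classInner (tw ρ (T ^ k)) χ = ∑ μ ∈ s, μ ^ k * m μ := by
  obtain ⟨s, θ, h1, h2, h3⟩ := exists_spec hT
  choose m hm using fun μ => (h1 μ).exists_nat_classInner hχ
  exact ⟨s, m, h2, fun k => by simp only [h3, classInner_sum_left, classInner_smul_left, hm]⟩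

theorem isIntegral_tw (hT : ∀ g, Commute T (ρ g)) (hi : IsIntegral ℤ T) (hχ : IsCharacter G χ) :
    IsIntegral ℤ (classInner (tw ρ T) χ) := by
  obtain ⟨s, m, h1, h2⟩ := exists_spec_nat hT hχ
  rw [← pow_one T, h2]
  exact IsIntegral.sum _ fun μ hμ => ((isIntegral_of_hasEigenvalue hi (h1 μ hμ)).pow 1).mul
    (isIntegral_natCast _)

theorem tw_eq_zero (hT : ∀ g, Commute T (ρ g)) (hχ : IsCharacter G χ)
    (h : classInner ρ.character χ = 0) : classInner (tw ρ T) χ = 0 := by
  obtain ⟨s, m, -, h2⟩ := exists_spec_nat hT hχ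
  have h3 := h2 0
  simp only [pow_zero, tw_one, one_mul, h] at h3
  rw [← pow_one T, h2]
  refine Finset.sum_eq_zero fun μ hμ => ?_
  rw [Finset.sum_eq_zero_iff.1 (show ∑ μ ∈ s, m μ = 0 by exact_mod_cast h3.symm) μ hμ, Nat.cast_zero,
    mul_zero]

theorem tw_pow (hT : ∀ g, Commute T (ρ g)) (hχ : IsCharacter G χ)
    (h : classInner ρ.character χ = 1) (k : ℕ) :
    classInner (tw ρ (T ^ k)) χ = classInner (tw ρ T) χ ^ k := by
  classical
  obtain ⟨s, m, -, h2⟩ := exists_spec_nat hT hχ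
  have h3 := h2 0
  simp only [pow_zero, tw_one, one_mul, h] at h3
  replace h3 : ∑ μ ∈ s, m μ = 1 := by exact_mod_cast h3.symm
  obtain ⟨μ, h4, h5⟩ := Finset.exists_ne_zero_of_sum_ne_zero (h3.trans_ne one_ne_zero)
  rw [← Finset.add_sum_erase _ _ h4] at h3
  have h6 : ∀ k, classInner (tw ρ (T ^ k)) χ = μ ^ k := fun k => by
    rw [h2, ← Finset.add_sum_erase _ _ h4, show m μ = 1 by omega, Finset.sum_eq_zero fun ν hν => by
      rw [Finset.sum_eq_zero_iff.1 (by omega : ∑ x ∈ s.erase μ, m x = 0) ν hν, Nat.cast_zero, mul_zero]]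
    simp
  rw [h6, ← pow_one T, h6, pow_one]

variable {U : Type*} [AddCommGroup U] [Module ℂ U] {σ : Representation ℂ G U}

omit [FiniteDimensional ℂ V] in
theorem exists_leftInv (ι : IntertwiningMap σ ρ) (h : Function.Injective ι) :
    ∃ q : IntertwiningMap ρ σ, ∀ u, q (ι u) = u := by
  obtain ⟨q, hq⟩ := ι.toLinearMap.exists_leftInverse_of_injective (LinearMap.ker_eq_bot.2 h)
  refine ⟨⟨(Nat.card G : ℂ)⁻¹ • ∑ g, σ g ∘ₗ q ∘ₗ ρ g⁻¹, fun x => ?_⟩, fun u => ?_⟩
  · ext v
    simp only [LinearMap.comp_apply, LinearMap.smul_apply, LinearMap.sum_apply, map_smul, map_sum]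
    congr 1
    refine (Fintype.sum_equiv (Equiv.mulLeft x) _ _ fun g => ?_).symm
    simp [← Module.End.mul_apply, ← map_mul]
  · change ((Nat.card G : ℂ)⁻¹ • ∑ g, σ g ∘ₗ q ∘ₗ ρ g⁻¹) (ι u) = u
    have h1 : ∀ g, σ g (q (ρ g⁻¹ (ι u))) = u := fun g => by
      rw [← ι.isIntertwining, show q (ι (σ g⁻¹ u)) = σ g⁻¹ u from LinearMap.congr_fun hq _,
        ← Module.End.mul_apply, ← map_mul]
      simp
    simp only [LinearMap.comp_apply, LinearMap.smul_apply, LinearMap.sum_apply, h1, Finset.sum_const,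
      Finset.card_univ, ← Nat.card_eq_fintype_card]
    rw [← Nat.cast_smul_eq_nsmul ℂ, inv_smul_smul₀ natCard_cast_ne_zero]

/-- An endomorphism commuting with the representation as an intertwining map. -/
def toInt (ρ : Representation ℂ G V) (T : Module.End ℂ V) (hT : ∀ g, Commute T (ρ g)) :
    IntertwiningMap ρ ρ := ⟨T, hT⟩

theorem exists_proj (hχ : IsIrrCharacter G χ) (h : classInner ρ.character χ = 1) :
    ∃ E : Module.End ℂ V, (∀ g, Commute E (ρ g)) ∧ E * E = E ∧ tw ρ E = χ ∧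
      ∀ T : Module.End ℂ V, (∀ g, Commute T (ρ g)) → ∃ c : ℂ, T * E = c • E ∧ E * T = c • E := by
  obtain ⟨n, σ, hσ, rfl⟩ := hχ
  have h' := h
  rw [(isCharacter_character ρ).classInner_comm (isCharacter_character σ), classInner_character,
    Nat.cast_eq_one] at h'
  rw [classInner_character, Nat.cast_eq_one] at h
  obtain ⟨ι, h0⟩ := (finrank_pos_iff_exists_ne_zero (R := ℂ) (M := IntertwiningMap σ ρ)).1 (by omega)
  obtain ⟨q, hq⟩ := exists_leftInv ι ((IsIrreducible.injective_or_eq_zero ι).resolve_right h0)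
  have hq0 : q ≠ 0 := fun e => h0 (IntertwiningMap.ext (LinearMap.ext fun u => by
    rw [← hq u, e]; simp))
  refine ⟨ι.toLinearMap ∘ₗ q.toLinearMap, (ι.comp q).isIntertwining', LinearMap.ext fun v => ?_,
    funext fun g => ?_, fun T hT => ?_⟩
  · exact congrArg ι (hq _)
  · rw [tw, Module.End.mul_eq_comp, ← LinearMap.comp_assoc, LinearMap.trace_comp_comm']
    congr 1
    exact LinearMap.ext fun u => (congrArg q (ι.isIntertwining _ _ g u).symm).trans (hq _)
  · obtain ⟨c, hc⟩ := (finrank_eq_one_iff_of_nonzero' ι h0).1 h ((toInt ρ T hT).comp ι)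
    obtain ⟨d, hd⟩ := (finrank_eq_one_iff_of_nonzero' q hq0).1 h' (q.comp (toInt ρ T hT))
    have h1 : ∀ u, T (ι u) = c • ι u := fun u => (DFunLike.congr_fun hc u).symm
    have h2 : ∀ v, q (T v) = d • q v := fun v => (DFunLike.congr_fun hd v).symm
    refine ⟨c, LinearMap.ext fun v => h1 _, LinearMap.ext fun v => ?_⟩
    change ι (q (T v)) = c • ι (q v)
    have h3 := h2 (ι (q v))
    rw [h1, map_smul, hq] at h3
    rw [h2, ← h3, map_smul]

theorem mf_iff_comm : (∀ χ, IsIrrCharacter G χ → classInner ρ.character χ = 0 ∨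
    classInner ρ.character χ = 1) ↔ ∀ S T : Module.End ℂ V, (∀ g, Commute S (ρ g)) →
      (∀ g, Commute T (ρ g)) → Commute S T := by
  constructor
  · intro h S T hS hT
    have hC : ∀ g, Commute (S * T - T * S) (ρ g) := fun g =>
      ((hS g).mul_left (hT g)).sub_left ((hT g).mul_left (hS g))
    have : NeZero (Nat.card G : ℂ) := ⟨natCard_cast_ne_zero⟩
    obtain ⟨W, hW⟩ := exists_isCompl ((toInt ρ _ hC).ker ρ ρ)
    rw [Commute, SemiconjBy, ← sub_eq_zero, ← LinearMap.ker_eq_top]
    by_contra hc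
    have : Nontrivial W.toSubmodule := Submodule.nontrivial_iff_ne_bot.2 fun e => hc (by
      have := congrArg Subrepresentation.toSubmodule hW.sup_eq_top
      rwa [Subrepresentation.toSubmodule_sup, e, sup_bot_eq] at this)
    obtain ⟨U, hU⟩ := exists_irreducible_subrep W.toRepresentation
    let ι : IntertwiningMap U.toRepresentation ρ :=
      ⟨W.toSubmodule.subtype ∘ₗ U.toSubmodule.subtype, fun g => rfl⟩
    have := nontrivial_of_isIrreducible U.toRepresentation
    obtain ⟨u, hu⟩ := exists_ne (0 : U.toSubmodule)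
    have hu' : ι u ≠ 0 := fun e => hu (Subtype.ext (Subtype.ext e))
    have h0 : ι ≠ 0 := fun e => hu' (by rw [e]; rfl)
    have h1 := h _ (isIrrCharacter_character U.toRepresentation)
    rw [classInner_character, Nat.cast_eq_zero, Nat.cast_eq_one] at h1
    replace h1 := h1.resolve_left
      ((finrank_pos_iff_exists_ne_zero (R := ℂ) (M := IntertwiningMap _ ρ)).2 ⟨ι, h0⟩).ne'
    obtain ⟨c, hc⟩ := (finrank_eq_one_iff_of_nonzero' ι h0).1 h1 ((toInt ρ S hS).comp ι)
    obtain ⟨d, hd⟩ := (finrank_eq_one_iff_of_nonzero' ι h0).1 h1 ((toInt ρ T hT).comp ι)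
    have h2 : S (ι u) = c • ι u := (DFunLike.congr_fun hc u).symm
    have h3 : T (ι u) = d • ι u := (DFunLike.congr_fun hd u).symm
    have h4 : ι u ∈ ((toInt ρ _ hC).ker ρ ρ ⊓ W).toSubmodule := ⟨by
      change S (T (ι u)) - T (S (ι u)) = 0
      rw [h3, h2, map_smul, map_smul, h2, h3, smul_comm, sub_self], u.1.2⟩
    rw [hW.inf_eq_bot] at h4
    exact hu' h4
  · rintro h _ ⟨n, σ, hσ, rfl⟩
    rw [classInner_character, Nat.cast_eq_zero, Nat.cast_eq_one, or_iff_not_imp_left]
    intro h0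
    obtain ⟨ι, h0⟩ := (finrank_pos_iff_exists_ne_zero (R := ℂ) (M := IntertwiningMap σ ρ)).1
      (Nat.pos_of_ne_zero h0)
    obtain ⟨q, hq⟩ := exists_leftInv ι ((IsIrreducible.injective_or_eq_zero ι).resolve_right h0)
    refine (finrank_eq_one_iff_of_nonzero' ι h0).2 fun κ => ?_
    obtain ⟨c, hc⟩ := exists_eq_smul_of_comm σ _ (q.comp κ).isIntertwining'
    refine ⟨c, IntertwiningMap.ext (LinearMap.ext fun u => ?_)⟩
    have h1 := LinearMap.congr_fun (h _ _ (ι.comp q).isIntertwining' (κ.comp q).isIntertwining') (ι u)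
    change ι (q (κ (q (ι u)))) = κ (q (ι (q (ι u)))) at h1
    rw [hq, hq, show q (κ u) = c • u from LinearMap.congr_fun hc u, map_smul] at h1
    exact h1

end Cfsg.Agent.Perm
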