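import Cfsg.Agent.FG.Sims
import Cfsg.Agent.BG.Base4

/-! Sections `X/K` embedded in `Sₙ` and containing `Aₙ`; groups between `A_m × A_n` and `S_m × S_n`. -/

set_option autoImplicit false

namespace Cfsg.Agent.Knapp

open Subgroup Equiv
open scoped Cfsg.Agent.BG Nat commutatorElement

variable {G : Type*} [Group G] {K X N N₁ N₂ : Subgroup G} {n : ℕ}

local notation "A" n => alternatingGroup (Fin n)

/-- `X/(X ∩ K)` is at least as large as `Aₙ`. -/
def Big (n : ℕ) (K X : Subgroup G) : Prop := n ! ≤ 2 * K.relIndex X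

/-- `ρ` has kernel `X ∩ K`. -/
def Ker (K : Subgroup G) {X : Subgroup G} (ρ : X →* Perm (Fin n)) : Prop := ∀ x, ρ x = 1 ↔ x.1 ∈ K

theorem card_perm_fin (n : ℕ) : Nat.card (Perm (Fin n)) = n ! := by simp [Fintype.card_perm]

theorem alt_le_of_card {Y : Subgroup (Perm (Fin n))} (h : n ! ≤ 2 * #Y) : (A n) ≤ Y := by
  refine Perm.alternatingGroup_le_of_index_le_two ?_
  have h1 := Y.card_mul_index
  rw [card_perm_fin] at h1
  by_contra h2
  have : #Y * 3 ≤ #Y * Y.index := Nat.mul_le_mul_left _ (by omega)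
  have := Nat.card_pos (α := Y)
  omega

theorem two_mul_card_alt (h : 2 ≤ n) : 2 * #(A n) = n ! := by
  haveI : Nontrivial (Fin n) := Fin.nontrivial_iff_two_le.2 h
  rw [two_mul_nat_card_alternatingGroup, card_perm_fin]

theorem eq_alt_or_top (h : 2 ≤ n) {Y : Subgroup (Perm (Fin n))} (hY : (A n) ≤ Y) : Y = (A n) ∨ Y = ⊤ := by
  haveI : Nontrivial (Fin n) := Fin.nontrivial_iff_two_le.2 h
  have := index_dvd_of_le hY
  rw [alternatingGroup.index_eq_two] at this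
  rcases (Nat.dvd_prime Nat.prime_two).1 this with e | e
  · exact .inr (index_eq_one.1 e)
  · exact .inl (Perm.eq_alternatingGroup_of_index_eq_two e)

theorem alt_le_of_norm (h : 5 ≤ n) {Y R : Subgroup (Perm (Fin n))} (hR : (A n) ≤ R) (h1 : Y ≤ R)
    (h2 : ∀ g ∈ R, ∀ y ∈ Y, g * y * g⁻¹ ∈ Y) (h0 : Y ≠ ⊥) : (A n) ≤ Y := by
  have h5 : 5 ≤ Nat.card (Fin n) := by simpa using h
  rcases eq_alt_or_top (by omega) hR with rfl | rfl
  · haveI : (Y.subgroupOf (A n)).Normal := ⟨fun y hy g => h2 g g.2 y hy⟩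
    haveI := alternatingGroup.isSimpleGroup h5
    rcases IsSimpleGroup.eq_bot_or_eq_top_of_normal (Y.subgroupOf (A n)) inferInstance with e | e
    · exact absurd ((subgroupOf_eq_bot.1 e).eq_bot_of_le h1) h0
    · exact subgroupOf_eq_top.1 e
  · haveI : Y.Normal := ⟨fun y hy g => h2 g trivial y hy⟩
    exact Perm.alternatingGroup_le_of_normal h5 ((nontrivial_iff_ne_bot Y).2 h0)

theorem alt_not_comm (h : 5 ≤ n) : ¬ ∀ x ∈ (A n), ∀ y ∈ (A n), x * y = y * x := fun e => by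
  have : IsMulCommutative (A n) := ⟨⟨fun x y => Subtype.ext (e x x.2 y y.2)⟩⟩
  have := alternatingGroup.isMulCommutative_iff_card_le_three.1 this
  simp at this; omega

theorem alt_not_solvable (h : 5 ≤ n) : ¬ Group.IsSolvable (A n) := fun e => by
  haveI := alternatingGroup.isSimpleGroup (α := Fin n) (by simpa using h)
  exact alt_not_comm h fun x hx y hy =>
    congrArg Subtype.val (IsSimpleGroup.comm_iff_isSolvable.2 e ⟨x, hx⟩ ⟨y, hy⟩)

namespace Ker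
variable {ρ : X →* Perm (Fin n)} (hρ : Ker K ρ)
include hρ

theorem res (h : N ≤ X) : Ker K (ρ.comp (inclusion h)) := fun x => hρ _

theorem card_range : #ρ.range = K.relIndex X := by
  rw [← index_ker, relIndex]
  congr 1
  ext x
  exact hρ x

theorem relIndex_le : K.relIndex X ≤ n ! := by
  rw [← hρ.card_range, ← card_perm_fin]
  exact card_le_card_group _

theorem relIndex_le' (h : N ≤ X) : K.relIndex N ≤ n ! := (hρ.res h).relIndex_le

theorem big_iff (h2 : 2 ≤ n) (h : N ≤ X) : Big n K N ↔ (A n) ≤ (ρ.comp (inclusion h)).range := by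
  rw [Big, ← (hρ.res h).card_range]
  refine ⟨alt_le_of_card, fun e => ?_⟩
  have := card_le_of_le e
  have := two_mul_card_alt h2
  omega

theorem exists_of_big (h2 : 2 ≤ n) (h : N ≤ X) (hb : Big n K N) {σ : Perm (Fin n)} (hσ : Perm.sign σ = 1) :
    ∃ x : X, x.1 ∈ N ∧ ρ x = σ :=
  let ⟨y, hy⟩ := (hρ.big_iff h2 h).1 hb (show σ ∈ (A n) from hσ)
  ⟨inclusion h y, y.2, hy⟩

theorem big_of_norm (h5 : 5 ≤ n) {Y : Subgroup G} (hY : Y ≤ X) (hb : Big n K Y) (h : N ≤ Y) (hn : Y ≤ N[N])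
    (h0 : ¬ N ≤ K) : Big n K N := by
  rw [hρ.big_iff (by omega) (h.trans hY)]
  refine alt_le_of_norm h5 ((hρ.big_iff (by omega) hY).1 hb) ?_ ?_ fun e => h0 fun x hx => ?_
  · rintro _ ⟨y, rfl⟩; exact ⟨inclusion h y, rfl⟩
  · rintro _ ⟨g, rfl⟩ _ ⟨y, rfl⟩
    refine ⟨⟨g * y * g⁻¹, (mem_normalizer_iff.1 (hn g.2) y).1 y.2⟩, ?_⟩
    simp only [MonoidHom.comp_apply]
    rw [← map_inv, ← map_mul, ← map_mul]
    rfl
  · have : (ρ.comp (inclusion (h.trans hY))) ⟨x, hx⟩ ∈ (⊥ : Subgroup (Perm (Fin n))) := e ▸ ⟨_, rfl⟩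
    exact (hρ _).1 this

theorem not_comm (h5 : 5 ≤ n) (h1 : N₁ ≤ X) (h2 : N₂ ≤ X) (b1 : Big n K N₁) (b2 : Big n K N₂) : ¬ ⁅N₁, N₂⁆ ≤ K :=
  fun e => alt_not_comm h5 fun s hs t ht => by
    obtain ⟨x, hx, rfl⟩ := hρ.exists_of_big (by omega) h1 b1 hs
    obtain ⟨y, hy, rfl⟩ := hρ.exists_of_big (by omega) h2 b2 ht
    have := (hρ ⁅x, y⁆).2 (e (commutator_mem_commutator hx hy))
    rwa [map_commutatorElement, commutatorElement_eq_one_iff_mul_comm] at this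

theorem not_solvable (h5 : 5 ≤ n) (h : N ≤ X) (hb : Big n K N) : ¬ Group.IsSolvable N := fun e => by
  have h1 := (hρ.big_iff (by omega) h).1 hb
  haveI : Group.IsSolvable (ρ.comp (inclusion h)).range :=
    solvable_of_surjective (MonoidHom.rangeRestrict_surjective _)
  exact alt_not_solvable h5 (solvable_of_solvable_injective (inclusion_injective h1))

end Ker

theorem Big.not_le [Finite G] (hb : Big n K X) (h : 2 * N.relIndex X < n !) : ¬ X ⊓ N ≤ K := fun e => by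
  have h1 := relIndex_dvd_of_le_left X e
  rw [inf_relIndex_left] at h1
  have : K.relIndex X ≤ N.relIndex X := Nat.le_of_dvd (Nat.pos_of_ne_zero index_ne_zero_of_finite) h1
  unfold Big at hb
  omega

theorem Ker.not_le_of_family [Finite G] {ρ : X →* Perm (Fin n)} (hρ : Ker K ρ) (h5 : 5 ≤ n) {Y : Subgroup G}
    (hY : Y ≤ X) (hb : Big n K Y) {ι : Type*} [Finite ι] (N : ι → Subgroup G) (h1 : ∀ i, Y ≤ N[N i])
    (h2 : ∀ i, 2 * (N i).relIndex Y < n !) : ¬ Y ⊓ ⨅ i, N i ≤ K := by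
  classical
  haveI := Fintype.ofFinite ι
  have key : ∀ s : Finset ι, Big n K (Y ⊓ s.inf N) ∧ Y ≤ N[(Y ⊓ s.inf N : Subgroup G)] := fun s => by
    induction s using Finset.induction_on with
    | empty => simpa using ⟨hb, le_normalizer⟩
    | insert i s _ ih =>
      have e : Y ⊓ (insert i s).inf N = (Y ⊓ N i) ⊓ (Y ⊓ s.inf N) := by
        rw [Finset.inf_insert, inf_inf_distrib_left]
      have n1 : Y ≤ N[(Y ⊓ N i : Subgroup G)] := BG.normsI le_normalizer (h1 i)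
      have n2 := BG.normsI n1 ih.2
      rw [e]
      refine ⟨hρ.big_of_norm h5 hY hb (inf_le_left.trans inf_le_left) n2 fun e => ?_, n2⟩
      refine hρ.not_comm h5 (inf_le_left.trans hY) (inf_le_left.trans hY)
        (hρ.big_of_norm h5 hY hb inf_le_left n1 (hb.not_le (h2 i))) ih.1 (le_trans ?_ e)
      exact le_inf (BG.commg_subl (inf_le_left.trans n1)) (BG.commg_subr (inf_le_left.trans ih.2))
  have h3 := (key Finset.univ).1
  rw [Finset.inf_univ_eq_iInf] at h3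
  intro e
  rw [Big, relIndex_eq_one.2 e] at h3
  have := Nat.factorial_le h5
  simp [Nat.factorial] at this
  omega

theorem exists_ext {H P : Type*} [Group H] [Group P] (C M : Subgroup H) [C.Normal]
    (h : ∀ x, ∃ c ∈ C, c⁻¹ * x ∈ M) (ψ₀ : M →* P) (h0 : ∀ m : M, m.1 ∈ C → ψ₀ m = 1) :
    ∃ ψ : H →* P, (∀ m : M, ψ m = ψ₀ m) ∧ ∀ c ∈ C, ψ c = 1 := by
  let π : M →* H ⧸ C := (QuotientGroup.mk' C).comp M.subtype
  have hπ : Function.Surjective π := fun y => by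
    obtain ⟨x, rfl⟩ := QuotientGroup.mk_surjective y
    obtain ⟨c, hc, hm⟩ := h x
    refine ⟨⟨_, hm⟩, ?_⟩
    show ((c⁻¹ * x : H) : H ⧸ C) = x
    rw [QuotientGroup.mk_mul, (QuotientGroup.eq_one_iff _).2 (inv_mem hc), one_mul]
  have hk : π.ker ≤ ψ₀.ker := fun m hm => h0 m ((QuotientGroup.eq_one_iff _).1 hm)
  refine ⟨(π.liftOfSurjective hπ ⟨ψ₀, hk⟩).comp (QuotientGroup.mk' C), fun m => ?_, fun c hc => ?_⟩
  · exact π.liftOfRightInverse_comp_apply _ (Function.rightInverse_surjInv hπ) ⟨ψ₀, hk⟩ m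
  · rw [MonoidHom.comp_apply, QuotientGroup.mk'_apply, (QuotientGroup.eq_one_iff _).2 hc, map_one]

set_option synthInstance.maxSize 2000 in
theorem signs (u v x1 x2 y1 y2 z1 z2 : ℤˣ) (hx : x1 = -1) (hy : y2 = -1) (hz : z1 * z2 = -1) (a1 : 1 = u → 1 ≠ v)
    (a2 : x1 = u → x2 ≠ v) (a3 : y1 = u → y2 ≠ v) (a4 : z1 = u → z2 ≠ v) (a5 : x1 * y1 = u → x2 * y2 ≠ v)
    (a6 : x1 * z1 = u → x2 * z2 ≠ v) (a7 : y1 * z1 = u → y2 * z2 ≠ v)
    (a8 : x1 * y1 * z1 = u → x2 * y2 * z2 ≠ v) : False := by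
  subst hx hy
  rcases Int.units_eq_one_or u with rfl | rfl <;> rcases Int.units_eq_one_or v with rfl | rfl <;>
    rcases Int.units_eq_one_or x2 with rfl | rfl <;> rcases Int.units_eq_one_or y1 with rfl | rfl <;>
    rcases Int.units_eq_one_or z1 with rfl | rfl <;> rcases Int.units_eq_one_or z2 with rfl | rfl <;>
    revert hz a1 a2 a3 a4 a5 a6 a7 a8 <;> decide

theorem classify {H : Type*} [Group H] {m n : ℕ} (hm : 2 ≤ m) (hn : 2 ≤ n) (ρ : H →* Perm (Fin m))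
    (ψ : H →* Perm (Fin n)) (hi : ∀ x, ρ x = 1 → ψ x = 1 → x = 1)
    (h1 : ∀ σ, Perm.sign σ = 1 → ∃ x, ρ x = σ ∧ ψ x = 1) (h2 : ∀ τ, Perm.sign τ = 1 → ∃ x, ρ x = 1 ∧ ψ x = τ)
    (h3 : ρ.range = (A m) → ψ.range = (A n)) :
    (ρ.range = (A m) ∧ Nonempty (H ≃* (A m) × (A n))) ∨
    (ρ.range = ⊤ ∧ (Nonempty (H ≃* Perm (Fin m) × Perm (Fin n)) ∨ Nonempty (H ≃* Perm (Fin m) × (A n)) ∨
      Nonempty (H ≃* ((Perm.sign.comp (MonoidHom.fst (Perm (Fin m)) (Perm (Fin n)))) *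
        (Perm.sign.comp (MonoidHom.snd (Perm (Fin m)) (Perm (Fin n))))).ker))) := by
  have hinj : Function.Injective (ρ.prod ψ) := (injective_iff_map_eq_one _).2 fun x hx =>
    hi x (congrArg Prod.fst hx) (congrArg Prod.snd hx)
  have iso : ∀ R : Subgroup (Perm (Fin m) × Perm (Fin n)), (∀ x, (ρ x, ψ x) ∈ R) →
      (∀ p ∈ R, ∃ x, Perm.sign (ρ x) = Perm.sign p.1 ∧ Perm.sign (ψ x) = Perm.sign p.2) → Nonempty (H ≃* R) := by
    intro R r1 r2
    have : (ρ.prod ψ).range = R := by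
      refine le_antisymm (by rintro _ ⟨x, rfl⟩; exact r1 x) fun p hp => ?_
      obtain ⟨x, x1, x2⟩ := r2 p hp
      obtain ⟨y, y1, y2⟩ := h1 (p.1 * (ρ x)⁻¹) (by simp [x1])
      obtain ⟨z, z1, z2⟩ := h2 (p.2 * (ψ x)⁻¹) (by simp [x2])
      exact ⟨y * z * x, Prod.ext (by simp [y1, z1]) (by simp [y2, z2])⟩
    exact ⟨this ▸ MonoidHom.ofInjective hinj⟩
  have hA : (A m) ≤ ρ.range := fun σ hσ => let ⟨x, hx, _⟩ := h1 σ hσ; ⟨x, hx⟩
  have sg : ∀ u : ℤˣ, u ≠ 1 → u = -1 := fun u hu => (Int.units_eq_one_or u).resolve_left hu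
  rcases eq_alt_or_top hm hA with e | e
  · refine .inl ⟨e, ?_⟩
    obtain ⟨f⟩ := iso ((A m).prod (A n)) (fun x => ⟨e.le ⟨x, rfl⟩, (h3 e).le ⟨x, rfl⟩⟩) fun p hp =>
      ⟨1, by simpa using (show Perm.sign p.1 = 1 from hp.1).symm, by simpa using (show Perm.sign p.2 = 1 from hp.2).symm⟩
    exact ⟨f.trans (prodEquiv _ _)⟩
  refine .inr ⟨e, ?_⟩
  have odd : ∀ u : ℤˣ, ∃ x, Perm.sign (ρ x) = u := fun u => by
    haveI : Nontrivial (Fin m) := Fin.nontrivial_iff_two_le.2 hm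
    obtain ⟨σ, rfl⟩ := Perm.sign_surjective (Fin m) u
    obtain ⟨x, rfl⟩ : σ ∈ ρ.range := e ▸ mem_top σ
    exact ⟨x, rfl⟩
  by_cases c1 : ∀ x, Perm.sign (ψ x) = 1
  · obtain ⟨f⟩ := iso ((⊤ : Subgroup _).prod (A n)) (fun x => ⟨trivial, c1 x⟩) fun p hp =>
      let ⟨x, hx⟩ := odd (Perm.sign p.1); ⟨x, hx, (c1 x).trans (show Perm.sign p.2 = 1 from hp.2).symm⟩
    exact .inr (.inl ⟨f.trans ((prodEquiv _ _).trans (MulEquiv.prodCongr topEquiv (MulEquiv.refl _)))⟩)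
  by_cases c2 : ∀ x, Perm.sign (ρ x) * Perm.sign (ψ x) = 1
  · refine .inr (.inr (iso _ c2 fun p hp => ?_))
    obtain ⟨x, hx⟩ := odd (Perm.sign p.1)
    have h4 : Perm.sign p.1 * Perm.sign p.2 = 1 := hp
    exact ⟨x, hx, mul_left_cancel ((hx ▸ c2 x).trans h4.symm)⟩
  push Not at c1 c2
  obtain ⟨x, hx⟩ := odd (-1)
  obtain ⟨y, hy⟩ := c1
  obtain ⟨z, hz⟩ := c2
  obtain ⟨f⟩ := iso ⊤ (fun _ => trivial) fun p _ => by
    by_contra! hc
    have a1 := hc 1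
    have a2 := hc x
    have a3 := hc y
    have a4 := hc z
    have a5 := hc (x * y)
    have a6 := hc (x * z)
    have a7 := hc (y * z)
    have a8 := hc (x * y * z)
    simp only [map_mul, map_one] at a1 a2 a3 a4 a5 a6 a7 a8
    exact signs _ _ _ _ _ _ _ _ hx (sg _ hy) (sg _ hz) a1 a2 a3 a4 a5 a6 a7 a8
  exact .inl ⟨f.trans topEquiv⟩

end Cfsg.Agent.Knapp
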