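import Cfsg.Agent.Perm.KnappA

/-! Knapp's theorem: the point stabilizer of a primitive group with an unfaithful alternating subconstituent. -/

set_option autoImplicit false
set_option linter.unusedSectionVars false

namespace Cfsg.Agent.Knapp

open Subgroup Equiv MulAction Cfsg.Agent.FG Cfsg.Agent.Sig Cfsg.Agent.BG
open scoped Nat

variable {G Ω : Type*} [Group G] [MulAction G Ω] [Finite G] [Finite Ω] {a b : Ω} {r : Ω → Ω → Prop} {d : ℕ}

local notation "St" => stabilizer G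
local notation "A" n => alternatingGroup (Fin n)

theorem exists_rep (X : Subgroup G) (T : Set Ω) (hT : ∀ g ∈ X, ∀ x ∈ T, g • x ∈ T) {n : ℕ} (hn : T.ncard = n) :
    ∃ (ρ : X →* Perm (Fin n)) (e : T ≃ Fin n), ∀ (g : X) (x y : T), ρ g (e x) = e y ↔ g.1 • x.1 = y.1 := by
  let S : SubMulAction X Ω := ⟨T, fun g _ hx => hT g g.2 _ hx⟩
  let e : T ≃ Fin n := Finite.equivFinOfCardEq ((Nat.card_coe_set_eq T).trans hn)
  let e' : S ≃ Fin n := e
  refine ⟨e'.permCongrHom.toMonoidHom.comp (toPermHom X S), e, fun g x y => ?_⟩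
  show e' (g • e'.symm (e' x)) = e' y ↔ _
  rw [Equiv.symm_apply_apply, e'.injective.eq_iff]
  exact Subtype.ext_iff

theorem rep_eq_one {X : Subgroup G} {T : Set Ω} {n : ℕ} {ρ : X →* Perm (Fin n)}
    {e : T ≃ Fin n} (h : ∀ (g : X) (x y : T), ρ g (e x) = e y ↔ g.1 • x.1 = y.1) (g : X) :
    ρ g = 1 ↔ ∀ x ∈ T, g.1 • x = x := by
  rw [Equiv.ext_iff, e.surjective.forall]
  simp only [Perm.one_apply, h, Subtype.forall]

/-- All suborbits `r x` have length `d`. -/
def Deg (r : Ω → Ω → Prop) (d : ℕ) : Prop := ∀ x, {c | r x c}.ncard = d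

section
variable (hr : Orbital G r) (hD : Deg r d)
include hr hD

theorem Deg.flip [IsPretransitive G Ω] : Deg (flip r) d := fun x => by
  obtain ⟨y, hy⟩ := hr.flip.exists_rel x
  rw [hr.flip.ncard_eq hy, relIndex_stabilizer_comm, ← hr.ncard_eq hy, hD]

theorem rep1 (h3 : 3 ≤ d) (x : Ω) : ∃ ρ : St x →* Perm (Fin d), Ker (OKer G r x) ρ ∧
    ∀ C ≤ St x, Big d (OKer G r x) C → ∀ y, r x y → ∀ g ∈ St x, ∃ c ∈ C, c⁻¹ * g ∈ St y := by
  obtain ⟨ρ, e, h⟩ := exists_rep (St x) {c | r x c} (fun g hg c hc => hg ▸ hr.smul g hc) (hD x)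
  have hk : Ker (OKer G r x) ρ := fun g => by
    rw [rep_eq_one h, mem_OKer]; exact ⟨fun h => ⟨g.2, h⟩, fun h => h.2⟩
  refine ⟨ρ, hk, fun C hC hb y hy g hg => ?_⟩
  haveI := alternatingGroup.isPretransitive_of_three_le_card (Fin d) (by simpa using h3)
  obtain ⟨σ, hσ⟩ := exists_smul_eq (A d) (e ⟨y, hy⟩) (e ⟨g • y, hg ▸ hr.smul g hy⟩)
  obtain ⟨c, hc, e1⟩ := hk.exists_of_big (by omega) hC hb σ.2
  refine ⟨c, hc, ?_⟩
  rw [mem_stabilizer_iff, mul_smul, inv_smul_eq_iff]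
  exact ((h c _ _).1 (by rw [e1]; exact hσ)).symm

theorem rep2 (h : r a b) {M : Subgroup G} (h1 : M ≤ St a) (h2 : M ≤ St b) :
    ∃ ρ : M →* Perm (Fin (d - 1)), Ker (OKer G r a) ρ := by
  obtain ⟨ρ, e, h⟩ := exists_rep M ({c | r a c} \ {b}) (fun g hg c hc => ⟨h1 hg ▸ hr.smul g hc.1,
    fun e => hc.2 (smul_left_cancel g (e.trans (h2 hg).symm))⟩) (n := d - 1)
    (by rw [Set.ncard_sdiff_singleton_of_mem (show b ∈ {c | r a c} from h), hD])
  refine ⟨ρ, fun g => ?_⟩
  rw [rep_eq_one h, mem_OKer]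
  refine ⟨fun h => ⟨h1 g.2, fun c hc => ?_⟩, fun h c hc => h.2 c hc.1⟩
  by_cases e : c = b
  · exact e ▸ h2 g.2
  · exact h c ⟨hc, e⟩

theorem small (h3 : 3 ≤ d) (h : r a b) {M : Subgroup G} (h1 : M ≤ St a) (h2 : M ≤ St b) :
    2 * (OKer G r a).relIndex M < d ! := by
  obtain ⟨ρ, hρ⟩ := rep2 hr hD h h1 h2
  have := hρ.relIndex_le
  obtain ⟨m, rfl⟩ : ∃ m, d = m + 1 := ⟨d - 1, by omega⟩
  rw [Nat.factorial_succ]
  have := Nat.factorial_pos m
  simp only [Nat.add_sub_cancel] at *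
  nlinarith

theorem relIndex_eq (h : r a b) : (OKer G r a).relIndex (St a ⊓ St b) * d = (OKer G r a).relIndex (St a) := by
  rw [← hD a, hr.ncard_eq h, ← inf_relIndex_left (St a) (St b)]
  exact relIndex_mul_relIndex _ _ _ (le_inf OKer_le (OKer_le' h)) inf_le_left

theorem big2 (h3 : 3 ≤ d) (h : r a b) (hb : Big d (OKer G r a) (St a)) : Big (d - 1) (OKer G r a) (St a ⊓ St b) := by
  rw [Big, ← relIndex_eq hr hD h] at hb
  obtain ⟨m, rfl⟩ : ∃ m, d = m + 1 := ⟨d - 1, by omega⟩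
  rw [Nat.factorial_succ, ← mul_assoc, mul_comm] at hb
  exact Nat.le_of_mul_le_mul_right hb (by omega)

end

theorem card_OKer [IsPretransitive G Ω] (hr : Orbital G r) (a b : Ω) : #(OKer G r a) = #(OKer G r b) := by
  obtain ⟨g, rfl⟩ := exists_smul_eq G a b
  rw [← hr.map_OKer, card_map_of_injective (MulAut.conj g).injective]

theorem relIndex_OKer [IsPretransitive G Ω] (hr : Orbital G r) (a b : Ω) :
    (OKer G r a).relIndex (St a) = (OKer G r b).relIndex (St b) :=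
  Nat.eq_of_mul_eq_mul_left (cardG_pos (OKer G r a)) (by
    rw [card_mul_relIndex OKer_le, card_OKer hr a b, card_mul_relIndex OKer_le, card_stabilizer_eq a b])

variable [FaithfulSMul G Ω] [IsPreprimitive G Ω]

theorem fit_eq_bot (hr : Orbital G r) (h : r a b) (h4 : fitIn (St a ⊓ St b) ≤ OKer G r a) :
    fitIn (St a ⊓ St b) = ⊥ := by
  have hab := hr.ne h
  have h5 : SubnIn (OKer G r a) (St a ⊓ St b) :=
    (hr.subn_OKer a).restrict (le_inf OKer_le (OKer_le' h)) inf_le_left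
  refine le_bot_iff.1 (fitIn_le_iff.2 fun p hp => ?_)
  haveI := Fact.mk hp
  have h6 : pcIn p (OKer G r a) = pcIn p (stabilizer G a ⊓ stabilizer G b) :=
    (pcIn_eq_inf h5).trans (inf_eq_left.2 (pcIn_le_fitIn.trans h4))
  rw [← h6]
  by_contra h7
  have h8 := norm_le_stabilizer (mt Eq.le h7) (pcIn_le.trans OKer_le) (le_normalizer_pcIn (hr.norm_OKer a))
  have h9 := pcIn_mono (p := p) (hr.subn_OKer a)
  have h10 : pcIn p (stabilizer G b) ≤ pcIn p (OKer G r a) := by
    have h10 : IsPGroup p (pcIn p (OKer G r a) ⊔ pcIn p (stabilizer G b) : Subgroup G) :=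
      isPGroup_pcIn.to_sup_of_normal_right' isPGroup_pcIn (le_normalizer_pcIn (pcIn_le.trans ((OKer_le' h).trans le_normalizer)))
    refine le_sup_right.trans (nilpotent_sub_norm h10.isNilpotent le_sup_left ((inf_le_inf_left _ h8).trans
      (le_of_le_of_eq (le_pcIn (le_inf inf_le_right (inf_le_left.trans (sup_le (pcIn_le.trans (OKer_le' h)) pcIn_le)))
        (normsI (normsY (h6 ▸ le_normalizer_pcIn le_normalizer) (le_normalizer_pcIn (inf_le_right.trans le_normalizer)))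
          (inf_le_left.trans le_normalizer)) h10.to_inf_left) h6.symm))).ge
  exact h7 (h9.trans ((functor_eq (fun g _ => cj_pcIn g) (h10.trans h9)).symm.trans
    (functor_eq_bot (fun _ => pcIn_le) (fun g _ => cj_pcIn g) hab.symm (h10.trans h9))).le)

section
variable (hr : Orbital G r) (hD : Deg r d) (h6 : 6 ≤ d) (hb : ∀ x, Big d (OKer G r x) (stabilizer G x))
include hr hD h6 hb

theorem fit_bot (h : r a b) : fitIn (St a ⊓ St b) = ⊥ := by
  refine fit_eq_bot hr h (by_contra fun e => ?_)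
  obtain ⟨ρ, hρ⟩ := rep2 hr hD h (M := St a ⊓ St b) inf_le_left inf_le_right
  refine hρ.not_solvable (by omega) fitIn_le (hρ.big_of_norm (by omega) le_rfl (big2 hr hD (by omega) h (hb a))
    fitIn_le (le_normalizer_fitIn le_normalizer) e) ?_
  haveI := isNilpotent_fitIn (K := St a ⊓ St b)
  infer_instance

theorem ker2_bot : (∀ x, OKer2 G r x = ⊥) ∨ ∀ x, OKer2 G (flip r) x = ⊥ := by
  obtain ⟨a, b, h⟩ := hr.ex
  obtain ⟨p, hp, h1⟩ := hr.exists_isPGroup a b
  haveI := Fact.mk hp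
  have hF := fit_bot hr hD h6 hb h
  refine h1.imp (fun h1 => hr.OKer2_eq_bot (a := a) ?_) fun h1 => hr.flip.OKer2_eq_bot (a := b) ?_
  · exact eq_bot_mono ((le_pcIn (OKer2_le.trans (le_inf OKer_le (OKer_le' h)))
      (inf_le_left.trans (hr.norm_OKer2 a)) h1).trans pcIn_le_fitIn) hF
  · exact eq_bot_mono ((le_pcIn (OKer2_le.trans (le_inf (OKer_le' (r := flip r) h) OKer_le))
      (inf_le_right.trans (hr.flip.norm_OKer2 b)) h1).trans pcIn_le_fitIn) hF

theorem flip_le (b : Ω) : OKer G (flip r) b ≤ OKer G r b := by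
  by_contra e
  obtain ⟨a, h⟩ := hr.flip.exists_rel b
  obtain ⟨ρ, hρ, -⟩ := rep1 hr hD (by omega) b
  have h1 := hρ.big_of_norm (by omega) le_rfl (hb b) OKer_le (hr.flip.norm_OKer b) e
  rcases ker2_bot hr hD h6 hb with h2 | h2
  · have n1 : OKer G (flip r) b ≤ N[OKer G r a] := (OKer_le' (r := flip r) h).trans (hr.norm_OKer a)
    have h3 := hρ.big_of_norm (by omega) OKer_le h1 inf_le_left (normsI le_normalizer n1)
      (h1.not_le (small hr hD (by omega) h (OKer_le' (r := flip r) h) OKer_le))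
    refine hρ.not_le_of_family (by omega) (inf_le_left.trans OKer_le) h3 (fun c : {c // r a c} => OKer G (flip r) c)
      (fun c => inf_le_right.trans ((OKer_le' c.2).trans (hr.flip.norm_OKer c))) (fun c => small hr.flip (hD.flip hr)
        (by omega) c.2 (inf_le_right.trans (OKer_le' c.2)) (inf_le_right.trans OKer_le)) (le_trans ?_ ((h2 a).le.trans bot_le))
    exact fun g hg => mem_OKer2.2 ⟨hg.1.2, fun c hc => (mem_OKer.1 (mem_iInf.1 hg.2 ⟨c, hc⟩)).2⟩
  · refine hρ.not_le_of_family (by omega) OKer_le h1 (fun c : {c // r c b} => OKer G r c)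
      (fun c => (OKer_le' (r := flip r) c.2).trans (hr.norm_OKer c)) (fun c => small hr hD
        (by omega) c.2 (OKer_le' (r := flip r) c.2) OKer_le) (le_trans ?_ ((h2 b).le.trans bot_le))
    exact fun g hg => mem_OKer2.2 ⟨hg.1, fun c hc => (mem_OKer.1 (mem_iInf.1 hg.2 ⟨c, hc⟩)).2⟩

theorem big_flip (x : Ω) : Big d (OKer G (flip r) x) (St x) :=
  (hb x).trans (Nat.mul_le_mul_left _ (Nat.le_of_dvd (Nat.pos_of_ne_zero index_ne_zero_of_finite)
    (relIndex_dvd_of_le_left _ (flip_le hr hD h6 hb x))))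

theorem flip_eq (x : Ω) : OKer G (flip r) x = OKer G r x := by
  have hb' := big_flip hr hD h6 hb
  have := flip_le hr.flip (hD.flip hr) h6 hb' x
  rw [show flip (flip r) = r from rfl] at this
  exact (flip_le hr hD h6 hb x).antisymm this

variable (h0 : ∀ x, OKer G r x ≠ ⊥)
include h0

theorem not_le_cent (h : r a b) : ¬ St a ⊓ C[OKer G r a] ≤ OKer G r a := fun e => by
  have s1 : SubnIn (OKer G r a) (St a ⊓ St b) :=
    (hr.subn_OKer a).restrict (le_inf OKer_le (OKer_le' h)) inf_le_left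
  have s2 : SubnIn (OKer G r b) (St a ⊓ St b) := flip_eq hr hD h6 hb b ▸
    (hr.flip.subn_OKer b).restrict (le_inf (OKer_le' (r := flip r) h) OKer_le) inf_le_right
  have h1 : layerIn (OKer G r b) ≤ layerIn (OKer G r a) := layerIn_le_iff.2 fun L hL => by
    have hL' := hL.trans s2
    refine (hL'.restrict ((hL'.le_or_commutator s1).elim id fun h2 => le_trans ?_ e) s1.le).le_layerIn
    exact le_inf (hL'.le.trans inf_le_left) (commutator_eq_bot_iff_le_centralizer.1 h2)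
  have h2 : layerIn (OKer G r b) = layerIn (OKer G r a) := eq_of_le_of_card_ge h1 (le_of_eq (by
    obtain ⟨g, rfl⟩ := exists_smul_eq G a b
    rw [← hr.map_OKer, layerIn_map_of_injective (MulAut.conj g).injective]
    exact (card_map_of_injective (MulAut.conj g).injective).symm))
  have h3 := eq_bot_of_norm (hr.ne h) ((layerIn_le _).trans OKer_le) (le_normalizer_layerIn (hr.norm_OKer a))
    (h2 ▸ le_normalizer_layerIn (hr.norm_OKer b))
  refine h0 a (fstarIn_eq_bot_iff.1 ?_)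
  rw [Sig.fstarIn_eq, h3, bot_sup_eq]
  exact eq_bot_mono (fitIn_mono s1) (fit_bot hr hD h6 hb h)

theorem norm_inf (h : r a b) : St a ≤ N[(OKer G r a ⊓ OKer G (flip r) b : Subgroup G)] := fun g hg => by
  obtain ⟨ρ, hρ, ht⟩ := rep1 hr hD (by omega) a
  obtain ⟨c, hc, hm⟩ := ht _ inf_le_left (hρ.big_of_norm (by omega) le_rfl (hb a) inf_le_left
    (normsI le_normalizer (norms_cent (hr.norm_OKer a))) (not_le_cent hr hD h6 hb h0 h)) b h g hg
  rw [← mul_inv_cancel_left c g]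
  refine mul_mem (cent_sub _ (centralizer_le (by exact inf_le_left) hc.2)) ?_
  exact normsI (inf_le_left.trans (hr.norm_OKer a)) (inf_le_right.trans (hr.flip.norm_OKer b))
    (⟨(St a).mul_mem ((St a).inv_mem hc.1) hg, hm⟩ : _ ∈ St a ⊓ St b)

theorem inf_bot (h : r a b) : OKer G r a ⊓ OKer G (flip r) b = ⊥ := by
  have hb' := big_flip hr hD h6 hb
  have := norm_inf hr.flip (hD.flip hr) h6 hb' (fun x => by rw [flip_eq hr hD h6 hb]; exact h0 x)
    (show flip r b a from h)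
  rw [show flip (flip r) = r from rfl, inf_comm] at this
  exact eq_bot_of_norm (hr.ne h) (inf_le_left.trans OKer_le) (norm_inf hr hD h6 hb h0 h) this

theorem main (a : Ω) : (2 * (OKer G r a).relIndex (St a) = d ! ∧ Nonempty (St a ≃* (A d) × (A (d - 1)))) ∨
    ((OKer G r a).relIndex (St a) = d ! ∧ (Nonempty (St a ≃* Perm (Fin d) × Perm (Fin (d - 1))) ∨
      Nonempty (St a ≃* Perm (Fin d) × (A (d - 1))) ∨
      Nonempty (St a ≃* ((Perm.sign.comp (MonoidHom.fst (Perm (Fin d)) (Perm (Fin (d - 1))))) *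
        (Perm.sign.comp (MonoidHom.snd (Perm (Fin d)) (Perm (Fin (d - 1)))))).ker))) := by
  obtain ⟨b, h⟩ := hr.exists_rel a
  obtain ⟨ρ, hρ, ht⟩ := rep1 hr hD (by omega) a
  have hC := hρ.big_of_norm (by omega) le_rfl (hb a) inf_le_left
    (normsI le_normalizer (norms_cent (hr.norm_OKer a))) (not_le_cent hr hD h6 hb h0 h)
  obtain ⟨ψ₀, hψ⟩ := rep2 hr.flip (hD.flip hr) h (M := St a ⊓ St b) inf_le_right inf_le_left
  have hi := inf_bot hr hD h6 hb h0 h
  have hM : Big (d - 1) (OKer G (flip r) b) (St a ⊓ St b) :=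
    inf_comm (St a) _ ▸ big2 hr.flip (hD.flip hr) (by omega) h (big_flip hr hD h6 hb b)
  have kM : OKer G r a ≤ St a ⊓ St b := le_inf OKer_le (OKer_le' h)
  have hK := hψ.big_of_norm (by omega) le_rfl hM kM (inf_le_left.trans (hr.norm_OKer a))
    fun e => h0 a ((inf_eq_left.2 e).symm.trans hi)
  have hc : (St a ⊓ St b) ⊓ C[OKer G r a] ≤ OKer G (flip r) b := by_contra fun e =>
    hψ.not_comm (by omega) inf_le_left kM (hψ.big_of_norm (by omega) le_rfl hM inf_le_left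
      (normsI le_normalizer (norms_cent (inf_le_left.trans (hr.norm_OKer a)))) e) hK
      ((commutator_eq_bot_iff_le_centralizer.2 inf_le_right).le.trans bot_le)
  let j : (St b).subgroupOf (St a) →* (St a ⊓ St b : Subgroup G) :=
    ⟨⟨fun m => ⟨m.1.1, m.1.2, m.2⟩, rfl⟩, fun _ _ => rfl⟩
  haveI : ((C[OKer G r a]).subgroupOf (St a)).Normal := normal_subgroupOf_of_le_normalizer (norms_cent (hr.norm_OKer a))
  have hdec : ∀ x : St a, ∃ c ∈ (C[OKer G r a]).subgroupOf (St a), c⁻¹ * x ∈ (St b).subgroupOf (St a) := fun x =>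
    let ⟨c, hc, hm⟩ := ht _ inf_le_left hC b h x x.2; ⟨⟨c, hc.1⟩, hc.2, hm⟩
  obtain ⟨ψ, p1, p2⟩ := exists_ext _ _ hdec (ψ₀.comp j) fun m hm => (hψ _).2 (hc ⟨(j m).2, hm⟩)
  have := classify (m := d) (n := d - 1) (by omega) (by omega) ρ ψ (fun x x1 x2 => ?_) (fun σ hσ => ?_)
    (fun τ hτ => ?_) fun e => ?_
  · refine this.imp (And.imp_left fun e => ?_) (And.imp_left fun e => ?_)
    · rw [← hρ.card_range, e, two_mul_card_alt (by omega)]
    · rw [← hρ.card_range, e, card_top, card_perm_fin]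
  · have x3 := (hρ x).1 x1
    have x4 := (hψ _).1 ((p1 ⟨x, (kM x3).2⟩).symm.trans x2)
    exact Subtype.ext (mem_bot.1 (hi.le ⟨x3, x4⟩))
  · obtain ⟨x, x1, x2⟩ := hρ.exists_of_big (by omega) inf_le_left hC hσ
    exact ⟨x, x2, p2 x x1.2⟩
  · obtain ⟨x, x1, x2⟩ := hψ.exists_of_big (by omega) kM hK hτ
    exact ⟨⟨x, x.2.1⟩, (hρ _).2 x1, (p1 ⟨⟨x, x.2.1⟩, x.2.2⟩).trans x2⟩
  · have e1 : ψ.range = ψ₀.range := by
      refine le_antisymm ?_ ?_
      · rintro _ ⟨x, rfl⟩
        obtain ⟨c, c1, c2⟩ := hdec x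
        refine ⟨j ⟨_, c2⟩, (p1 ⟨_, c2⟩).symm.trans ?_⟩
        simp [p2 c c1]
      · rintro _ ⟨x, rfl⟩
        exact ⟨⟨x, x.2.1⟩, p1 ⟨⟨x, x.2.1⟩, x.2.2⟩⟩
    rw [e1]
    refine (eq_alt_or_top (by omega) (alt_le_of_card (hψ.card_range ▸ hM))).resolve_right fun e2 => ?_
    have e3 := hψ.card_range
    have e4 := relIndex_eq hr.flip (hD.flip hr) h
    have e5 := two_mul_card_alt (n := d) (by omega)
    rw [e2, card_top, card_perm_fin] at e3
    rw [inf_comm, ← e3, flip_eq hr hD h6 hb, relIndex_OKer hr b a, ← hρ.card_range, e, mul_comm,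
      Nat.mul_factorial_pred (by omega)] at e4
    have := Nat.factorial_pos d
    omega

end

end Cfsg.Agent.Knapp
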