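import Mathlib

/-! Ree's inequality `ree`: if every point lies in the `⟨x, y⟩`-orbit of a point of `R` then the numbers of cycles satisfy
`c(x) + c(y) + c(xy) ≤ n + 2|R|`; `orb_prime`: `p · c(g) = n + (p-1)·fix(g)` for `g` of prime order. -/

set_option autoImplicit false

namespace Cfsg.Agent.Ree

open MulAction Module LinearMap Subgroup

variable {G Ω : Type*} [Group G] [MulAction G Ω]

/-- number of cycles of `g` on `Ω`. -/
noncomputable def orb (Ω : Type*) [MulAction G Ω] (g : G) : ℕ := Nat.card (orbitRel.Quotient (zpowers g) Ω)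

/-- `v ↦ v - v ∘ g`. -/
def dL (Ω : Type*) [MulAction G Ω] (g : G) : (Ω → ℚ) →ₗ[ℚ] (Ω → ℚ) := LinearMap.id - funLeft ℚ ℚ (g • ·)

theorem dL_apply (g : G) (v : Ω → ℚ) : dL Ω g v = v - fun a => v (g • a) := rfl

theorem orb_le [Finite Ω] (g : G) : orb Ω g ≤ finrank ℚ (ker (dL Ω g)) := by
  let q : Ω → orbitRel.Quotient (zpowers g) Ω := Quotient.mk _
  have h := funLeft_injective_of_surjective ℚ ℚ q Quotient.mk_surjective
  have := Fintype.ofFinite (orbitRel.Quotient (zpowers g) Ω)
  rw [orb, Nat.card_eq_fintype_card, ← finrank_fintype_fun_eq_card ℚ, ← finrank_range_of_inj h]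
  refine Submodule.finrank_mono ?_
  rintro _ ⟨v, rfl⟩
  refine sub_eq_zero.2 (funext fun a => congrArg v (Quotient.sound' ?_))
  exact (orbitRel _ _).symm ⟨⟨g, mem_zpowers g⟩, rfl⟩

theorem ree [Finite Ω] (x y : G) (R : Finset Ω) (h : ∀ a, ∃ r ∈ R, ∃ g ∈ closure {x, y}, g • r = a) :
    orb Ω x + orb Ω y + orb Ω (x * y) ≤ Nat.card Ω + 2 * R.card := by
  classical
  have := Fintype.ofFinite Ω
  have hn : finrank ℚ (Ω → ℚ) = Nat.card Ω := by rw [finrank_fintype_fun_eq_card, Nat.card_eq_fintype_card]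
  set A := range (dL Ω y)
  set B := (range (dL Ω x)).map (funLeft ℚ ℚ (y • ·) : (Ω → ℚ) →ₗ[ℚ] (Ω → ℚ))
  have h1 : ∀ g ∈ closure {x, y}, ∀ v, dL Ω g v ∈ A ⊔ B := fun g hg => by
    induction hg using closure_induction with
    | mem g hg =>
      intro v
      rcases hg with rfl | rfl
      · exact Submodule.mem_sup.2 ⟨_, ⟨dL Ω g v, rfl⟩, _, ⟨dL Ω g v, ⟨v, rfl⟩, rfl⟩, sub_add_cancel _ _⟩
      · exact Submodule.mem_sup_left ⟨v, rfl⟩
    | one => intro v; simp [dL_apply]
    | mul g k _ _ hg hk =>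
      intro v
      have := (A ⊔ B).add_mem (hg v) (hk fun a => v (g • a))
      simpa [dL_apply, mul_smul] using this
    | inv g _ hg =>
      intro v
      have := (A ⊔ B).neg_mem (hg fun a => v (g⁻¹ • a))
      simpa [dL_apply] using this
  have h2 : Nat.card Ω ≤ finrank ℚ ↥(A ⊔ B) + R.card := by
    let S := Submodule.span ℚ ((R.image fun r => (Pi.single r 1 : Ω → ℚ)) : Set (Ω → ℚ))
    have e : (A ⊔ B) ⊔ S = ⊤ := by
      rw [eq_top_iff, ← (Pi.basisFun ℚ Ω).span_eq, Submodule.span_le]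
      rintro _ ⟨a, rfl⟩
      obtain ⟨r, hr, g, hg, rfl⟩ := h a
      refine Submodule.mem_sup.2 ⟨_, h1 g hg (Pi.single (g • r) 1), Pi.single r 1,
        Submodule.subset_span (Finset.mem_coe.2 (Finset.mem_image_of_mem _ hr)), ?_⟩
      ext b
      simp [dL_apply, Pi.single_apply]
    rw [← hn, ← finrank_top, ← e]
    exact (Submodule.finrank_add_le_finrank_add_finrank _ _).trans
      (Nat.add_le_add_left ((finrank_span_finset_le_card _).trans Finset.card_image_le) _)
  have h3 : finrank ℚ (ker (dL Ω (x * y))) ≤ finrank ℚ ↥(A ⊓ B) + R.card := by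
    let φ := (dL Ω y).domRestrict (ker (dL Ω (x * y)))
    rw [← φ.finrank_range_add_finrank_ker]
    refine Nat.add_le_add (Submodule.finrank_mono ?_) ?_
    · rintro _ ⟨⟨v, hv⟩, rfl⟩
      refine ⟨⟨v, rfl⟩, -dL Ω x v, Submodule.neg_mem _ ⟨v, rfl⟩, funext fun a => ?_⟩
      have := congrFun hv a
      simp only [dL_apply, mul_smul, Pi.sub_apply, Pi.zero_apply] at this
      change -(v (y • a) - v (x • y • a)) = v a - v (y • a)
      linarith
    · let ψ : ker φ →ₗ[ℚ] (R → ℚ) := (funLeft ℚ ℚ Subtype.val).comp ((Submodule.subtype _).comp (Submodule.subtype _))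
      rw [← Fintype.card_coe, ← finrank_fintype_fun_eq_card ℚ]
      refine finrank_le_finrank_of_injective (f := ψ) ((injective_iff_map_eq_zero _).2 ?_)
      rintro ⟨⟨v, hv⟩, hw⟩ e
      have e1 : ∀ a, v (y • a) = v a := fun a => (sub_eq_zero.1 (congrFun hw a)).symm
      have e2 : ∀ a, v (x • a) = v a := fun a => by
        have : v (y⁻¹ • a) = v ((x * y) • y⁻¹ • a) := sub_eq_zero.1 (congrFun hv (y⁻¹ • a))
        rw [mul_smul, smul_inv_smul, ← e1, smul_inv_smul] at this
        exact this.symm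
      have e3 : ∀ g ∈ closure {x, y}, ∀ a, v (g • a) = v a := fun g hg => by
        induction hg using closure_induction with
        | mem g hg => rcases hg with rfl | rfl; exacts [e2, e1]
        | one => simp
        | mul g k _ _ hg hk => intro a; rw [mul_smul, hg, hk]
        | inv g _ hg => intro a; rw [← hg, smul_inv_smul]
      refine Subtype.ext (Subtype.ext (funext fun a => ?_))
      obtain ⟨r, hr, g, hg, rfl⟩ := h a
      exact (e3 g hg r).trans (congrFun e ⟨r, hr⟩)
  have h4 := Submodule.finrank_sup_add_finrank_inf_eq A B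
  have h5 : finrank ℚ B ≤ finrank ℚ (range (dL Ω x)) := Submodule.finrank_map_le _ _
  have h6 := (dL Ω x).finrank_range_add_finrank_ker
  have h7 : finrank ℚ A + _ = _ := (dL Ω y).finrank_range_add_finrank_ker
  have := orb_le (Ω := Ω) x
  have := orb_le (Ω := Ω) y
  have := orb_le (Ω := Ω) (x * y)
  omega

theorem orb_prime [Finite Ω] {g : G} {p : ℕ} (hp : p.Prime) (hg : orderOf g = p) :
    orb Ω g * p = Nat.card Ω + (p - 1) * (fixedBy Ω g).ncard := by
  classical
  have hf : IsOfFinOrder g := orderOf_pos_iff.1 (hg ▸ hp.pos)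
  have : Finite (zpowers g) := finite_zpowers.2 hf
  have := Fintype.ofFinite (zpowers g)
  have := Fintype.ofFinite Ω
  have := Fintype.ofFinite (orbitRel.Quotient (zpowers g) Ω)
  have hc : Fintype.card (zpowers g) = p := by rw [← Nat.card_eq_fintype_card, Nat.card_zpowers, hg]
  have h1 := sum_card_fixedBy_eq_card_orbits_mul_card_group (zpowers g) Ω
  rw [orb, Nat.card_eq_fintype_card, ← hc, ← h1, ← Finset.add_sum_erase _ _ (Finset.mem_univ 1),
    Finset.sum_const_nat (m := (fixedBy Ω g).ncard), Finset.card_erase_of_mem (Finset.mem_univ _), Finset.card_univ]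
  · congr 1
    rw [Nat.card_eq_fintype_card]
    exact Fintype.card_congr ((Equiv.setCongr (fixedBy_one_eq_univ _ _)).trans (Equiv.Set.univ _))
  · rintro ⟨u, hu⟩ h
    rw [← Nat.card_eq_fintype_card, Nat.card_coe_set_eq]
    congr 1
    refine Set.Subset.antisymm (fun a ha => ?_) fun a ha => ?_
    · have : Fact (Nat.card (zpowers g)).Prime := ⟨by rwa [Nat.card_zpowers, hg]⟩
      obtain ⟨k, e⟩ := mem_zpowers_of_prime_card rfl (Finset.ne_of_mem_erase h) (g' := ⟨g, mem_zpowers g⟩)
      have := fixedBy_subset_fixedBy_zpow Ω _ k ha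
      rwa [show (⟨u, hu⟩ : zpowers g) ^ k = _ from e] at this
    · obtain ⟨k, rfl⟩ := hu
      exact fixedBy_subset_fixedBy_zpow Ω g k ha

theorem orb_pos [Finite Ω] (a : Ω) (g : G) : 0 < orb Ω g :=
  have : Nonempty (orbitRel.Quotient (zpowers g) Ω) := ⟨Quotient.mk _ a⟩
  Nat.card_pos

end Cfsg.Agent.Ree
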