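import Mathlib.GroupTheory.Solvable
import Mathlib.GroupTheory.NoncommPiCoprod

/-! Direct powers of a non-abelian simple group `T`: epimorphisms `T ^ ι → T` factor through a
coordinate (`exists_coord_of_surjective`), and Scott's lemma: epimorphisms onto `T` with distinct
kernels are independent (`exists_forall_eq_of_ker_ne`). -/

set_option autoImplicit false

namespace Cfsg.Agent.Perm

open Subgroup

variable {T : Type*} [Group T] [IsSimpleGroup T]

theorem commutator_top_of_not_comm (hT : ¬ IsMulCommutative T) :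
    ⁅(⊤ : Subgroup T), (⊤ : Subgroup T)⁆ = ⊤ :=
  (IsSimpleGroup.eq_bot_or_eq_top_of_normal _ inferInstance).resolve_left fun h => hT ⟨⟨fun a b =>
    commutatorElement_eq_one_iff_mul_comm.1 (mem_bot.1 (h ▸ commutator_mem_commutator trivial trivial))⟩⟩

theorem exists_coord_of_surjective (hT : ¬ IsMulCommutative T) {ι : Type*} [Finite ι]
    (f : (ι → T) →* T) (hf : Function.Surjective f) :
    ∃ (i : ι) (β : T ≃* T), ∀ x, f x = β (x i) := by
  classical
  have hn : ∀ i, (f.comp (MonoidHom.mulSingle (fun _ => T) i)).range.Normal := fun i =>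
    ⟨by
      rintro _ ⟨t, rfl⟩ g
      obtain ⟨y, rfl⟩ := hf g
      refine ⟨y i * t * (y i)⁻¹, ?_⟩
      simp only [MonoidHom.comp_apply, MonoidHom.mulSingle_apply, ← map_mul, ← map_inv]
      congr 1
      funext j
      by_cases h : j = i
      · subst h; simp
      · simp [h]⟩
  have key : ∀ S : Set ι, (∀ i ∈ S, ∀ t, f (Pi.mulSingle i t) = 1) → ∀ x : ι → T,
      (∀ i ∉ S, x i = 1) → f x = 1 := fun S h x hx => by
    have : x ∈ Subgroup.pi Set.univ fun i => if i ∈ S then (⊤ : Subgroup T) else ⊥ := fun i _ => by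
      by_cases h : i ∈ S <;> simp [h, hx]
    refine (pi_le_iff (J := f.ker)).2 (fun i => ?_) this
    rintro _ ⟨t, ht, rfl⟩
    by_cases hi : i ∈ S
    · exact h i hi t
    · rw [show t = 1 by simpa [hi] using ht, map_one]
      exact one_mem _
  obtain ⟨i, hi⟩ : ∃ i, (f.comp (MonoidHom.mulSingle (fun _ => T) i)).range = ⊤ := by
    by_contra! h
    obtain ⟨t, ht⟩ := exists_ne (1 : T)
    obtain ⟨x, rfl⟩ := hf t
    exact ht (key Set.univ (fun i _ t => mem_bot.1
      (((hn i).eq_bot_or_eq_top.resolve_right (h i)) ▸ ⟨t, rfl⟩)) x (by simp))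
  have hj : ∀ j, j ≠ i → ∀ t, f (Pi.mulSingle j t) = 1 := fun j hj t => by
    refine mem_bot.1 (((hn j).eq_bot_or_eq_top.resolve_right fun h => hT ⟨⟨fun a b => ?_⟩⟩) ▸ ⟨t, rfl⟩)
    obtain ⟨u, rfl⟩ := MonoidHom.range_eq_top.1 hi a
    obtain ⟨v, rfl⟩ := MonoidHom.range_eq_top.1 h b
    exact ((Pi.mulSingle_commute hj.symm u v).map f).eq
  have hb : Function.Bijective (f.comp (MonoidHom.mulSingle (fun _ => T) i)) := by
    refine ⟨(MonoidHom.ker_eq_bot_iff _).1 ((MonoidHom.normal_ker _).eq_bot_or_eq_top.resolve_right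
      fun h => ?_), MonoidHom.range_eq_top.1 hi⟩
    obtain ⟨t, ht⟩ := exists_ne (1 : T)
    obtain ⟨x, rfl⟩ := MonoidHom.range_eq_top.1 hi t
    exact ht (MonoidHom.mem_ker.1 (h ▸ mem_top x))
  refine ⟨i, MulEquiv.ofBijective _ hb, fun x => ?_⟩
  have := key {j | j ≠ i} hj ((Pi.mulSingle i (x i))⁻¹ * x) fun j h => by
    obtain rfl : j = i := by simpa using h
    simp
  rw [map_mul, map_inv, inv_mul_eq_one] at this
  exact this.symm

theorem exists_forall_eq_of_ker_ne (hT : ¬ IsMulCommutative T) {D ι : Type*} [Group D] [Finite ι]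
    (f : ι → D →* T) (hf : ∀ i, Function.Surjective (f i))
    (hk : ∀ i j, (f i).ker = (f j).ker → i = j) (x : ι → T) : ∃ d, ∀ i, f i d = x i := by
  classical
  have := Fintype.ofFinite ι
  have h1 : ∀ i j, j ≠ i → (f j).ker.map (f i) = ⊤ := fun i j hij => by
    refine (Normal.map inferInstance _ (hf i)).eq_bot_or_eq_top.resolve_left fun h => hij ?_
    rw [Subgroup.map_eq_bot_iff] at h
    refine hk _ _ (le_antisymm h ?_)
    rcases (Normal.map (inferInstance : (f i).ker.Normal) _ (hf j)).eq_bot_or_eq_top with h2 | h2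
    · exact (Subgroup.map_eq_bot_iff _).1 h2
    obtain ⟨t, ht⟩ := exists_ne (1 : T)
    obtain ⟨d, rfl⟩ := hf i t
    obtain ⟨d', h3, h4⟩ : f j d ∈ (f i).ker.map (f j) := h2 ▸ mem_top _
    have := h (show d'⁻¹ * d ∈ (f j).ker by simp [MonoidHom.mem_ker, h4])
    rw [MonoidHom.mem_ker, map_mul, map_inv, MonoidHom.mem_ker.1 h3] at this
    exact absurd (by simpa using this) ht
  have h2 : ∀ i (s : Finset ι), i ∉ s → (⨅ j ∈ s, (f j).ker).map (f i) = ⊤ := fun i s => by
    induction s using Finset.induction_on with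
    | empty => simpa [← MonoidHom.range_eq_map, MonoidHom.range_eq_top] using hf i
    | insert j s hj ih =>
      intro hi
      rw [Finset.mem_insert, not_or] at hi
      have : (⨅ j ∈ s, (f j).ker).Normal := normal_iInf_normal fun j => normal_iInf_normal fun _ =>
        inferInstance
      rw [Finset.iInf_insert, eq_top_iff, ← commutator_top_of_not_comm hT]
      conv_lhs => congr; rw [← h1 i j (Ne.symm hi.1)]; rfl; rw [← ih hi.2]
      rw [← map_commutator]
      exact map_mono (commutator_le_inf _ _)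
  have h3 : ∀ s : Finset ι, ∃ d, ∀ i, f i d = if i ∈ s then x i else 1 := fun s => by
    induction s using Finset.induction_on with
    | empty => exact ⟨1, by simp⟩
    | insert j s hj ih =>
      obtain ⟨d, hd⟩ := ih
      obtain ⟨d', h4, h5⟩ : x j ∈ (⨅ k ∈ Finset.univ.erase j, (f k).ker).map (f j) :=
        h2 j _ (Finset.notMem_erase _ _) ▸ mem_top _
      refine ⟨d' * d, fun i => ?_⟩
      by_cases h : i = j
      · simp [h, hd, hj, h5]
      · have : f i d' = 1 := by
          simp only [SetLike.mem_coe, mem_iInf] at h4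
          exact h4 i (by simp [h])
        simp [h, hd, this]
  simpa using h3 Finset.univ

omit [IsSimpleGroup T] in
theorem exists_equiv_of_ker_eq {D : Type*} [Group D] {f g : D →* T} (hf : Function.Surjective f)
    (hg : Function.Surjective g) (h : f.ker = g.ker) : ∃ β : T ≃* T, ∀ d, β (f d) = g d :=
  ⟨(QuotientGroup.quotientKerEquivOfSurjective f hf).symm.trans
    ((QuotientGroup.quotientMulEquivOfEq h).trans (QuotientGroup.quotientKerEquivOfSurjective g hg)),
    fun d => by
      rw [show f d = QuotientGroup.quotientKerEquivOfSurjective f hf d from rfl]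
      simp only [MulEquiv.trans_apply, MulEquiv.symm_apply_apply]
      rfl⟩

end Cfsg.Agent.Perm
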