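import Cfsg.Agent.Comp.SimM
import Cfsg.Agent.Golay.Fix

/-! Sylow counting for elements of prime order inside a subgroup: `card_norm_dvd` (`|N_K(⟨y⟩)|` divides
`(p-1)|C_K(y)|`), `syl` (`|K : N_K(⟨y⟩)| ≡ 1 mod p`), `card_le_of_free`, `coatom_of`. -/

set_option autoImplicit false

namespace Cfsg.Agent.SylCount

open Cfsg.Agent.Comp Cfsg.Agent.Golay MulAction Subgroup

variable {G : Type*} [Group G]

theorem card_norm_dvd [Finite G] (K : Subgroup G) {y : G} {p : ℕ} (hp : p.Prime) (hy : orderOf y = p) :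
    Nat.card ↥(K ⊓ normalizer (zpowers y : Set G)) ∣ (p - 1) * Nat.card ↥(K ⊓ centralizer {y}) := by
  let φ : ↥(K ⊓ normalizer (zpowers y : Set G)) →* MulAut (zpowers y) :=
    (zpowers y).normalizerMonoidHom.comp (inclusion inf_le_right)
  have h1 : Nat.card φ.range ∣ p - 1 := by
    have := card_subgroup_dvd_card φ.range
    rwa [IsCyclic.card_mulAut, Nat.card_zpowers, hy, Nat.totient_prime hp] at this
  have h2 : φ.ker = (centralizer {y}).subgroupOf _ := by
    ext g
    rw [← MonoidHom.comap_ker, mem_comap, normalizerMonoidHom_ker, centralizer_zpowers]; rfl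
  have h3 : K ⊓ normalizer (zpowers y : Set G) ⊓ centralizer {y} = K ⊓ centralizer {y} := by
    rw [inf_assoc, ← centralizer_zpowers, inf_eq_right.2 (centralizer_le_normalizer _)]
  rw [← φ.ker.index_mul_card, index_ker, h2, card_subgroupOf_eq, h3]
  exact Nat.mul_dvd_mul_right h1 _

theorem syl_pow [Finite G] {K P : Subgroup G} {p k : ℕ} (hp : p.Prime) (hK : P ≤ K) (hP : Nat.card P = p ^ k)
    (hn : ¬ p ^ (k + 1) ∣ Nat.card K) :
    ∃ i, i % p = 1 % p ∧ i * Nat.card ↥(K ⊓ normalizer (P : Set G)) = Nat.card K := by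
  obtain ⟨i, h1, h2⟩ := index_norm_modEq (P := P.subgroupOf K) hp
    ((Nat.card_congr (subgroupOfEquivOfLe hK).toEquiv).trans hP) rfl hn
  exact ⟨i, h1, by rwa [← subgroupOf_normalizer_eq hK, card_subgroupOf_eq] at h2⟩

theorem syl [Finite G] {K : Subgroup G} {y : G} {p : ℕ} (hp : p.Prime) (hK : y ∈ K) (hy : orderOf y = p)
    (hn : ¬ p ^ 2 ∣ Nat.card K) :
    ∃ i, i % p = 1 % p ∧ i * Nat.card ↥(K ⊓ normalizer (zpowers y : Set G)) = Nat.card K :=
  syl_pow (k := 1) hp (zpowers_le.2 hK) (by rw [Nat.card_zpowers, hy, pow_one]) hn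

theorem order_dvd_cent [Finite G] {K : Subgroup G} {y : G} (hK : y ∈ K) :
    orderOf y ∣ Nat.card ↥(K ⊓ centralizer {y}) :=
  (K ⊓ centralizer {y}).orderOf_dvd_natCard ⟨hK, mem_centralizer_singleton_iff.2 rfl⟩

theorem order_dvd_norm [Finite G] {K : Subgroup G} {y : G} (hK : y ∈ K) :
    orderOf y ∣ Nat.card ↥(K ⊓ normalizer (zpowers y : Set G)) :=
  (K ⊓ normalizer (zpowers y : Set G)).orderOf_dvd_natCard ⟨hK, le_normalizer (mem_zpowers y)⟩

theorem card_le_of_free {X : Type*} [MulAction G X] [Finite X] {K : Subgroup G} {a : X}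
    (h : ∀ g ∈ K, g • a = a → g = 1) : Nat.card K ≤ Nat.card X := by
  have : K ⊓ stabilizer G a = ⊥ := eq_bot_iff.2 fun g hg => h g hg.1 hg.2
  rw [card_eq_ncard_orbit_mul K a, this, card_bot, mul_one, ← Set.ncard_univ]
  exact Set.ncard_le_ncard (Set.subset_univ _)

theorem coatom_of {A B : Subgroup G} (hAB : A ≤ B) (hne : A ≠ B) (h : ∀ K, A ≤ K → K ≤ B → K = A ∨ K = B) :
    IsCoatom (A.subgroupOf B) := by
  refine ⟨fun e => hne (hAB.antisymm (subgroupOf_eq_top.1 e)), fun C hC => ?_⟩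
  rcases h (C.map B.subtype) (by simpa [map_subgroupOf_eq_of_le hAB] using map_mono (f := B.subtype) hC.le)
    (map_subtype_le _) with e | e
  · exact absurd (by rw [← e, ← comap_subtype, comap_map_eq_self_of_injective B.subtype_injective]) hC.ne
  · rwa [← map_subtype_inj, ← MonoidHom.range_eq_map, range_subtype]

end Cfsg.Agent.SylCount
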